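import Cfsg.Agent.HKS.CosetTwo

/-!
# Constituents of the restriction of an irreducible character to a subgroup of index two

* `eq_of_restrict_irr` : if the restriction is irreducible it is the only constituent;
* `restrict_eq_add` : if the character vanishes off the subgroup, the restriction is the sum of any two
  different constituents.
-/

set_option autoImplicit false
set_option linter.unusedSectionVars false

namespace Cfsg.Agent.H615.AltClif

open Cfsg Cfsg.Agent.Characters.Core
open scoped ComplexConjugate

universe u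

variable {W : Type u} [Group W] [Fintype W] {D : Subgroup W} [Fintype D]

theorem eq_of_irr_constituent {φ θ : D → ℂ} (hφ : IsIrrCharacter D φ) (hθ : IsIrrCharacter D θ)
    (h : classInner φ θ ≠ 0) : θ = φ := by
  by_contra hne
  exact h (classInner_irr_ne hφ hθ (Ne.symm hne))

/-- The norm of the restriction of a character vanishing off a subgroup of index two. -/
theorem norm_restrict (hD : D.index = 2) {χ : W → ℂ} (hχ : IsIrrCharacter W χ)
    (hv : ∀ y, y ∉ D → χ y = 0) : classInner (fun d : D => χ d) (fun d : D => χ d) = 2 := by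
  classical
  have h1 := classInner_irr_self hχ
  have hc0 : (Nat.card D : ℂ) ≠ 0 := card_ne_zero_complex
  have h4 : ∑ d : D, χ d * conj (χ d) = ∑ g : W, χ g * conj (χ g) := by
    rw [← Finset.sum_subtype (Finset.univ.filter (fun g : W => g ∈ D))
      (p := fun g => g ∈ D) (by simp) (fun g => χ g * conj (χ g)), Finset.sum_filter]
    refine Finset.sum_congr rfl fun g _ => ?_
    by_cases hg : g ∈ D
    · rw [if_pos hg]
    · rw [if_neg hg, hv g hg, zero_mul]
  rw [classInner_def, HKS.CosetTwo.card_eq hD] at h1
  rw [classInner_def, h4]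
  push_cast at h1
  field_simp at h1 ⊢
  exact h1

/-- The restriction of an irreducible character vanishing off the subgroup of index two is the sum
of any two different constituents. -/
theorem restrict_eq_add (hD : D.index = 2) {χ : W → ℂ} (hχ : IsIrrCharacter W χ)
    (hv : ∀ y, y ∉ D → χ y = 0) {θ₁ θ₂ : D → ℂ} (h₁ : IsIrrCharacter D θ₁)
    (h₂ : IsIrrCharacter D θ₂) (hne : θ₁ ≠ θ₂) (hc₁ : classInner (fun d : D => χ d) θ₁ ≠ 0)
    (hc₂ : classInner (fun d : D => χ d) θ₂ ≠ 0) : (fun d : D => χ d) = θ₁ + θ₂ := by
  have hnorm := norm_restrict hD hχ hv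
  have hchar : IsCharacter D (fun d : D => χ d) :=
    Characters.Brauer.isCharacter_restrict (isIrr_isCharacter hχ) D
  obtain ⟨a, ha⟩ := classInner_isNat hchar (isIrr_isCharacter h₁)
  obtain ⟨b, hb⟩ := classInner_isNat hchar (isIrr_isCharacter h₂)
  have ha' : classInner θ₁ (fun d : D => χ d) = a := by
    rw [← classInner_conj_symm, ha]; exact Complex.conj_natCast a
  have hb' : classInner θ₂ (fun d : D => χ d) = b := by
    rw [← classInner_conj_symm, hb]; exact Complex.conj_natCast b
  have ha0 : 1 ≤ a := by
    rcases Nat.eq_zero_or_pos a with h | h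
    · rw [h] at ha; exact absurd (by simpa using ha) hc₁
    · exact h
  have hb0 : 1 ≤ b := by
    rcases Nat.eq_zero_or_pos b with h | h
    · rw [h] at hb; exact absurd (by simpa using hb) hc₂
    · exact h
  set f : D → ℂ := (fun d : D => χ d) - θ₁ - θ₂ with hf
  have hfnorm : classInner f f = 4 - 2 * ((a : ℂ) + b) := by
    rw [hf]
    simp only [classInner_sub_left, classInner_sub_right, hnorm, ha, hb, ha', hb',
      classInner_irr_self h₁, classInner_irr_self h₂, classInner_irr_ne h₁ h₂ hne,
      classInner_irr_ne h₂ h₁ hne.symm]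
    ring
  have h2 := classInner_self_eq_ofReal f
  rw [hfnorm] at h2
  have h3 : (4 : ℝ) - 2 * ((a : ℝ) + b) =
      (Nat.card D : ℝ)⁻¹ * ∑ g : D, Complex.normSq (f g) := by
    exact_mod_cast h2
  have h4 : (0 : ℝ) ≤ 4 - 2 * ((a : ℝ) + b) := by
    rw [h3]
    exact mul_nonneg (by positivity) (Finset.sum_nonneg fun _ _ => Complex.normSq_nonneg _)
  have h5 : (a : ℝ) + b ≤ 2 := by linarith
  have h6 : a + b ≤ 2 := by exact_mod_cast h5
  have h7 : a = 1 := by omega
  have h8 : b = 1 := by omega
  have hf0 : f = 0 := by
    apply classInner_self_eq_zero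
    rw [hfnorm, h7, h8]
    norm_num
  rw [hf, sub_sub, sub_eq_zero] at hf0
  exact hf0

end Cfsg.Agent.H615.AltClif
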