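import Mathlib

/-!
# The dihedral group of order eight on four points

For `z = (a b)(c d)`:
* `VV z` : the permutations commuting with `z` and fixing the fixed points of `z`; a normal
  `2`-subgroup of the centralizer of `z` (`isPGroup_VV`);
* `KK z y` : the elementary abelian group generated by `z` and `y = (a c)(b d)`.
-/

set_option autoImplicit false
set_option linter.unusedSectionVars false

namespace Cfsg.Agent.H615.AltFour

open Equiv Equiv.Perm

universe u

variable {α : Type u}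

/-- The permutations commuting with `z` and fixing the fixed points of `z`. -/
def VV (z : Perm α) : Subgroup (Perm α) where
  carrier := {g | g * z = z * g ∧ ∀ x, z x = x → g x = x}
  mul_mem' := by
    rintro g h ⟨hg, hg'⟩ ⟨hh, hh'⟩
    refine ⟨?_, fun x hx => ?_⟩
    · rw [mul_assoc, hh, ← mul_assoc, hg, mul_assoc]
    · rw [Perm.mul_apply, hh' x hx, hg' x hx]
  one_mem' := ⟨by simp, fun x _ => rfl⟩
  inv_mem' := by
    rintro g ⟨hg, hg'⟩
    refine ⟨?_, fun x hx => ?_⟩
    · rw [inv_mul_eq_iff_eq_mul, ← mul_assoc, hg, mul_assoc, mul_inv_cancel, mul_one]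
    · rw [Perm.inv_eq_iff_eq, hg' x hx]

theorem mem_VV {z g : Perm α} : g ∈ VV z ↔ g * z = z * g ∧ ∀ x, z x = x → g x = x := Iff.rfl

theorem VV_le_centralizer (z : Perm α) : VV z ≤ Subgroup.centralizer ({z} : Set (Perm α)) := by
  intro g hg
  rw [Subgroup.mem_centralizer_singleton_iff]
  exact hg.1

theorem conj_mem_VV {z g h : Perm α} (hh : h * z = z * h) (hg : g ∈ VV z) :
    h * g * h⁻¹ ∈ VV z := by
  have hh' : h⁻¹ * z = z * h⁻¹ := by
    rw [inv_mul_eq_iff_eq_mul, ← mul_assoc, hh, mul_assoc, mul_inv_cancel, mul_one]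
  refine ⟨?_, fun x hx => ?_⟩
  · rw [mul_assoc, hh', ← mul_assoc, mul_assoc h, hg.1, ← mul_assoc, hh, mul_assoc, mul_assoc,
      mul_assoc]
  · have h1 : z (h⁻¹ x) = h⁻¹ x := by
      rw [← Perm.mul_apply, ← hh', Perm.mul_apply, hx]
    rw [Perm.mul_apply, Perm.mul_apply, hg.2 _ h1, ← Perm.mul_apply, mul_inv_cancel, Perm.one_apply]

variable [DecidableEq α]

section Points

variable {a b c d : α} (hab : a ≠ b) (hac : a ≠ c) (had : a ≠ d) (hbc : b ≠ c) (hbd : b ≠ d)
  (hcd : c ≠ d)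

include hab hac had hbc hbd hcd

theorem z_apply : (swap a b * swap c d) a = b ∧ (swap a b * swap c d) b = a ∧
    (swap a b * swap c d) c = d ∧ (swap a b * swap c d) d = c := by
  refine ⟨?_, ?_, ?_, ?_⟩
  · rw [Perm.mul_apply, swap_apply_of_ne_of_ne hac had, swap_apply_left]
  · rw [Perm.mul_apply, swap_apply_of_ne_of_ne hbc hbd, swap_apply_right]
  · rw [Perm.mul_apply, swap_apply_left, swap_apply_of_ne_of_ne had.symm hbd.symm]
  · rw [Perm.mul_apply, swap_apply_right, swap_apply_of_ne_of_ne hac.symm hbc.symm]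

omit hab hac had hbc hbd hcd in
theorem z_apply_of_ne {x : α} (ha : x ≠ a) (hb : x ≠ b) (hc : x ≠ c) (hd : x ≠ d) :
    (swap a b * swap c d) x = x := by
  rw [Perm.mul_apply, swap_apply_of_ne_of_ne hc hd, swap_apply_of_ne_of_ne ha hb]

theorem pow_four {g : Perm α} (hg : g ∈ VV (swap a b * swap c d)) : g ^ 4 = 1 := by
  obtain ⟨za, zb, zc, zd⟩ := z_apply hab hac had hbc hbd hcd
  obtain ⟨z, hz⟩ : ∃ z, z = swap a b * swap c d := ⟨_, rfl⟩
  have hne := fun {x : α} => z_apply_of_ne (a := a) (b := b) (c := c) (d := d) (x := x)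
  rw [← hz] at hg za zb zc zd
  simp only [← hz] at hne
  have hcomm : ∀ x, g (z x) = z (g x) := fun x => by
    rw [← Perm.mul_apply, hg.1, Perm.mul_apply]
  have hin : ∀ x, z x ≠ x → g x = a ∨ g x = b ∨ g x = c ∨ g x = d := by
    intro x hx
    by_contra hcon
    push Not at hcon
    have h1 := hne hcon.1 hcon.2.1 hcon.2.2.1 hcon.2.2.2
    rw [← hcomm] at h1
    exact hx (g.injective h1)
  have hgb : g b = z (g a) := by rw [← za, hcomm]
  have hgd : g d = z (g c) := by rw [← zc, hcomm]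
  have hga := hin a (by rw [za]; exact hab.symm)
  have hgc := hin c (by rw [zc]; exact hcd.symm)
  have hgac : g a ≠ g c := fun h => hac (g.injective h)
  have hgbc : g b ≠ g c := fun h => hbc (g.injective h)
  have key : ∀ x, (x = a ∨ x = b ∨ x = c ∨ x = d) → g (g (g (g x))) = x := by
    rcases hga with h1 | h1 | h1 | h1 <;> rcases hgc with h2 | h2 | h2 | h2 <;>
      rw [h1] at hgb hgac <;> rw [h2] at hgd hgac hgbc <;>
      simp only [za, zb, zc, zd] at hgb hgd <;> rw [hgb] at hgbc <;>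
      first
        | exact absurd rfl hgac
        | exact absurd rfl hgbc
        | (rintro x (rfl | rfl | rfl | rfl) <;> simp only [h1, h2, hgb, hgd])
  ext x
  have h4 : (g ^ 4) x = g (g (g (g x))) := rfl
  rw [h4, Perm.one_apply]
  by_cases hx : x = a ∨ x = b ∨ x = c ∨ x = d
  · exact key x hx
  · push Not at hx
    have h5 := hg.2 x (hne hx.1 hx.2.1 hx.2.2.1 hx.2.2.2)
    rw [h5, h5, h5, h5]

theorem isPGroup_VV : IsPGroup 2 (VV (swap a b * swap c d)) := by
  intro g
  refine ⟨2, ?_⟩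
  exact Subtype.ext (pow_four hab hac had hbc hbd hcd g.2)

theorem comm : (swap a b * swap c d) * (swap a c * swap b d) =
    (swap a c * swap b d) * (swap a b * swap c d) := by
  obtain ⟨za, zb, zc, zd⟩ := z_apply hab hac had hbc hbd hcd
  obtain ⟨ya, yc, yb, yd⟩ := z_apply hac hab had hbc.symm hcd hbd
  ext x
  rw [Perm.mul_apply, Perm.mul_apply (swap a c * swap b d)]
  by_cases ha : x = a
  · rw [ha, ya, za, zc, yb]
  by_cases hb : x = b
  · rw [hb, yb, zb, zd, ya]
  by_cases hc : x = c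
  · rw [hc, yc, zc, za, yd]
  by_cases hd : x = d
  · rw [hd, yd, zd, zb, yc]
  rw [z_apply_of_ne ha hb hc hd, z_apply_of_ne ha hc hb hd, z_apply_of_ne ha hb hc hd]

theorem z_sq : (swap a b * swap c d) * (swap a b * swap c d) = 1 := by
  obtain ⟨za, zb, zc, zd⟩ := z_apply hab hac had hbc hbd hcd
  ext x
  rw [Perm.mul_apply, Perm.one_apply]
  by_cases ha : x = a
  · rw [ha, za, zb]
  by_cases hb : x = b
  · rw [hb, zb, za]
  by_cases hc : x = c
  · rw [hc, zc, zd]
  by_cases hd : x = d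
  · rw [hd, zd, zc]
  rw [z_apply_of_ne ha hb hc hd, z_apply_of_ne ha hb hc hd]

/-- The elementary abelian group of order four of the four points. -/
theorem exists_four : ∃ E : Subgroup (Perm α), E ≤ VV (swap a b * swap c d) ∧
    (∀ g ∈ E, ∀ h ∈ E, g * h = h * g) ∧ (∀ g ∈ E, g ^ 2 = 1) ∧
    (∀ [Fintype α], E ≤ alternatingGroup α) ∧ (∀ [Finite α], 4 ≤ Nat.card E) := by
  obtain ⟨za, zb, zc, zd⟩ := z_apply hab hac had hbc hbd hcd
  obtain ⟨ya, yc, yb, yd⟩ := z_apply hac hab had hbc.symm hcd hbd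
  have hc := comm hab hac had hbc hbd hcd
  have hz := z_sq hab hac had hbc hbd hcd
  have hy := z_sq hac hab had hbc.symm hcd hbd
  have hyV : swap a c * swap b d ∈ VV (swap a b * swap c d) := by
    refine ⟨hc.symm, fun x hx => ?_⟩
    apply z_apply_of_ne
    · rintro rfl; rw [za] at hx; exact hab hx.symm
    · rintro rfl; rw [zc] at hx; exact hcd hx.symm
    · rintro rfl; rw [zb] at hx; exact hab hx
    · rintro rfl; rw [zd] at hx; exact hcd hx
  have hzV : swap a b * swap c d ∈ VV (swap a b * swap c d) := ⟨rfl, fun x hx => hx⟩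
  have hsign : ∀ [Fintype α], sign (swap a b * swap c d) = 1 ∧ sign (swap a c * swap b d) = 1 := by
    intro _
    rw [Perm.sign_mul, Perm.sign_mul, sign_swap hab, sign_swap hcd, sign_swap hac, sign_swap hbd]
    simp
  have hza' := za
  have hya' := ya
  have hzy : (swap a b * swap c d) ((swap a c * swap b d) a) = d := by rw [ya, zc]
  obtain ⟨z, hz'⟩ : ∃ z, z = swap a b * swap c d := ⟨_, rfl⟩
  obtain ⟨y, hy'⟩ : ∃ y, y = swap a c * swap b d := ⟨_, rfl⟩
  simp only [← hz', ← hy'] at *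
  have hcm : Commute z y := hc
  have hsq : ∀ i j : ℕ, (z ^ i * y ^ j) * (z ^ i * y ^ j) = 1 := by
    intro i j
    have h1 : (z ^ i * y ^ j) * (z ^ i * y ^ j) = (z * z) ^ i * (y * y) ^ j := by
      rw [hcm.pow_pow i j |>.symm.mul_mul_mul_comm, ← (Commute.refl z).mul_pow,
        ← (Commute.refl y).mul_pow]
    rw [h1, hz, hy, one_pow, one_pow, one_mul]
  refine ⟨{ carrier := {g | ∃ i j : ℕ, g = z ^ i * y ^ j}
            mul_mem' := ?_, one_mem' := ⟨0, 0, by simp⟩, inv_mem' := ?_ }, ?_, ?_, ?_, ?_, ?_⟩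
  · rintro _ _ ⟨i, j, rfl⟩ ⟨k, l, rfl⟩
    refine ⟨i + k, j + l, ?_⟩
    rw [(hcm.pow_pow k j).symm.mul_mul_mul_comm, pow_add, pow_add]
  · rintro _ ⟨i, j, rfl⟩
    exact ⟨i, j, inv_eq_of_mul_eq_one_right (hsq i j)⟩
  · rintro _ ⟨i, j, rfl⟩
    exact (VV z).mul_mem ((VV z).pow_mem hzV i) ((VV z).pow_mem hyV j)
  · rintro _ ⟨i, j, rfl⟩ _ ⟨k, l, rfl⟩
    rw [(hcm.pow_pow k j).symm.mul_mul_mul_comm, (hcm.pow_pow i l).symm.mul_mul_mul_comm, ← pow_add,
      ← pow_add, ← pow_add, ← pow_add, add_comm k i, add_comm l j]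
  · rintro _ ⟨i, j, rfl⟩
    rw [pow_two, hsq]
  · intro _
    rintro _ ⟨i, j, rfl⟩
    exact (alternatingGroup α).mul_mem ((alternatingGroup α).pow_mem hsign.1 i)
      ((alternatingGroup α).pow_mem hsign.2 j)
  · intro _
    have h4 : Nat.card (Fin 4) = 4 := by simp
    rw [← h4]
    let f : Fin 4 → Perm α := ![1, z, y, z * y]
    have hf : ∀ i, ∃ k l : ℕ, f i = z ^ k * y ^ l := by
      intro i
      fin_cases i
      · exact ⟨0, 0, by simp [f]⟩
      · exact ⟨1, 0, by simp [f]⟩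
      · exact ⟨0, 1, by simp [f]⟩
      · exact ⟨1, 1, by simp [f]⟩
    refine Nat.card_le_card_of_injective (fun i => ⟨f i, hf i⟩) ?_
    intro i j hij
    have h1 : f i = f j := Subtype.ext_iff.mp hij
    have h2 : f i a = f j a := by rw [h1]
    have h3 : ∀ i, f i a = ![a, b, c, d] i := by
      intro i
      fin_cases i
      · rfl
      · exact za
      · exact ya
      · exact hzy
    rw [h3, h3] at h2
    fin_cases i <;> fin_cases j <;> simp at h2 ⊢ <;> tauto

end Points

variable [Fintype α]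

theorem exists_points (h : 4 ≤ Fintype.card α) : ∃ a b c d : α, a ≠ b ∧ a ≠ c ∧ a ≠ d ∧ b ≠ c ∧
    b ≠ d ∧ c ≠ d := by
  obtain ⟨f⟩ : Nonempty (Fin 4 ↪ α) := by
    rw [Function.Embedding.nonempty_iff_card_le]; simpa using h
  refine ⟨f 0, f 1, f 2, f 3, ?_, ?_, ?_, ?_, ?_, ?_⟩ <;> exact fun h => by
    have := f.injective h
    simp at this

theorem cycleType_z {a b c d : α} (hab : a ≠ b) (hac : a ≠ c) (had : a ≠ d) (hbc : b ≠ c)
    (hbd : b ≠ d) (hcd : c ≠ d) :
    (swap a b * swap c d).cycleType = Multiset.replicate 2 2 := by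
  have hdisj : Disjoint (swap a b) (swap c d) := by
    intro x
    by_cases h1 : x = a
    · right; subst h1; exact swap_apply_of_ne_of_ne hac had
    · by_cases h2 : x = b
      · right; subst h2; exact swap_apply_of_ne_of_ne hbc hbd
      · left; exact swap_apply_of_ne_of_ne h1 h2
  rw [hdisj.cycleType_mul, (isCycle_swap hab).cycleType, (isCycle_swap hcd).cycleType,
    card_support_swap hab, card_support_swap hcd]
  rfl

end Cfsg.Agent.H615.AltFour
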