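import Cfsg.Agent.H615.AltDefect
import Cfsg.Agent.H615.AltNum
import Cfsg.Agent.H615.AltOne

/-!
# The rank of a block of an alternating group

`blockRank_lt` : a block of `alternatingGroup α` with nontrivial defect group `D` of sectional `p`-rank
at most `s` has `p`-regular rank less than `p ^ s`.
-/

set_option autoImplicit false
set_option linter.unusedSectionVars false

namespace Cfsg.Agent.H615.AltRank

open Finset Cfsg Cfsg.Agent.H614 Cfsg.Agent.H615.AltRefl Cfsg.Agent.H615.AltConj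
open Cfsg.Agent.H615.AltSpan Cfsg.Agent.H615.AltSelf Cfsg.Agent.H615.AltNum
open Cfsg.Agent.Characters.Core

universe u

variable {α : Type u} [Fintype α] [DecidableEq α]

theorem core_weight {m p : ℕ} (hp : 0 < p) {β : Fin m → ℕ} (hβ : Function.Injective β) :
    ∑ j, core p β j / p = npairs p (core p β) := by
  rw [npairs_of_mod (core_mod (p := p) β), ← sum_low p hβ]
  exact Finset.sum_congr rfl fun j _ => core_div hp β j

theorem blockRank_lt {p : ℕ} [hp : Fact p.Prime] {M : Ideal AlgInt} (hM : IsPModular p M)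
    {B : Set (IrrCharacter (alternatingGroup α))} (hB : IsPBlock M B)
    {D : Subgroup (alternatingGroup α)} (hD : IsDefectGroup p M B D) (hD1 : D ≠ ⊥) {s : ℕ}
    (hrank : SectionalPRankLE p s D) : blockRank p B < p ^ s := by
  classical
  have hMp : M.IsPrime := hM.2.1.isPrime
  have hp0 : 0 < p := hp.out.pos
  rcases subsingleton_or_nontrivial α with hα | hα
  · exfalso
    apply hD1
    rw [eq_bot_iff]
    intro g _
    rw [Subgroup.mem_bot]
    apply Subtype.ext
    exact Subsingleton.elim _ _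
  obtain ⟨m, hm, hN⟩ : ∃ m, Fintype.card α ≤ m ∧ p ∣ m + m :=
    ⟨p * Fintype.card α, Nat.le_mul_of_pos_left _ hp0, ⟨2 * Fintype.card α, by ring⟩⟩
  obtain ⟨χ₀, hχ₀⟩ := Blocks.Basic.isPBlock_nonempty hB
  obtain ⟨β₀, hβ₀, hs₀, hc₀⟩ := exists_beta hm χ₀
  obtain ⟨w, hw⟩ : ∃ w, ∑ j, β₀ j / p = w + npairs p β₀ :=
    ⟨_, (Nat.sub_add_cancel (npairs_le hp0 hβ₀.injective)).symm⟩
  rcases Nat.eq_zero_or_pos w with rfl | hw0
  · exact absurd (AltDefect.eq_bot hM hm hβ₀ hs₀ hB hχ₀ hc₀ hD (by simpa using hw)) hD1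
  -- the weight of the members of the colour
  have hwt : ∀ γ ∈ Col α p β₀, ∑ j, γ j / p = w + npairs p γ := fun γ hγ =>
    weight_of_sameCol hp0 hγ.2.2 (hs₀.trans hγ.2.1.symm) hw
  have hself : ∀ S : Finset (Fin m → ℕ), (∀ γ ∈ S, γ ∈ Col α p β₀ ∧ IsRefl γ γ) →
      S.card ≤ scb p w := by
    intro S hS
    refine card_self_le hp0 hN β₀ w S fun γ hγ => ?_
    obtain ⟨h1, h2⟩ := hS γ hγ
    exact ⟨h1.1, h2, h1.2.2, hwt γ h1⟩
  -- the core
  have hcinj := core_injective hp0 hβ₀.injective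
  have hc0 := core_weight hp0 hβ₀.injective
  have hcol0 : SameCol p (core p β₀) β₀ := sameCol_of_mod (core_mod β₀)
  have hPhi := Phi_alt (α := α) (m := m) p
  have hUp := Phi_upRel (α := α) (m := m) hp.out hm
  have key : ∀ {c k : ℕ} (T : Finset (alternatingGroup α → ℂ)), T.card ≤ c →
      (∀ γ ∈ Col α p β₀, Phi α p γ ∈ Submodule.span ℂ (T : Set (alternatingGroup α → ℂ))) →
      (∀ S : Finset (Fin m → ℕ), (∀ γ ∈ S, γ ∈ Col α p β₀ ∧ IsRefl γ γ) → S.card ≤ k) →
      blockRank p B ≤ c + k := by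
    intro c k T hT hT' hk
    exact (blockRank_le_add hM hm hβ₀ hs₀ hB hχ₀ hc₀ hT' hk).trans (Nat.add_le_add_right hT _)
  by_cases h2 : p = 2
  · subst h2
    obtain ⟨T, hT, hT'⟩ := AltMult.rank_two hcinj hc0 w hPhi hUp
    have h3 := key T hT (fun γ hγ => hT' γ (hcol0.trans hγ.2.2) (hwt γ hγ)) hself
    rcases Nat.lt_or_ge w 3 with h4 | h4
    · rcases Nat.lt_or_ge w 2 with h5 | h5
      · have h6 : w = 1 := by omega
        subst h6
        have h7 := AltDefect.one_le hD1 hM hD hrank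
        have h8 := two_weight_one
        omega
      · have h6 : w = 2 := by omega
        subst h6
        have h7 := AltDefect.four_le hM hβ₀ hs₀ hB hχ₀ hc₀ hD hw hrank
        have h8 := two_weight_two
        omega
    · have h5 := two_lt h4
      have h6 := AltDefect.pow_le_two hM hβ₀ hs₀ hB hχ₀ hc₀ hD hw hrank
      obtain ⟨v, rfl⟩ : ∃ v, w = v + 1 := ⟨w - 1, by omega⟩
      rw [Nat.add_sub_cancel] at h5
      rw [pow_succ] at h6
      omega
  · have hodd : p % 2 = 1 := Nat.odd_iff.mp (hp.out.odd_of_ne_two h2)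
    have hp3 : 3 ≤ p := by
      have := hp.out.two_le
      omega
    refine lt_of_lt_of_le ?_ (AltDefect.pow_le_odd hM h2 hβ₀ hs₀ hB hχ₀ hc₀ hD hw hrank)
    obtain ⟨T, hT, hT'⟩ := rank_le hp0 w β₀ _ hPhi hUp
    rcases Nat.lt_or_ge w 2 with h4 | h4
    · have h5 : w = 1 := by omega
      subst h5
      rw [pow_one]
      by_cases hex : ∃ γ₀ ∈ Col α p β₀, IsRefl γ₀ γ₀
      · obtain ⟨γ₀, hγ₀, hr₀⟩ := hex
        have hcolc : SameCol p (core p β₀) γ₀ := hcol0.trans hγ₀.2.2
        obtain ⟨T, hT, hT'⟩ := AltOne.weight_one hp0 hodd hN hPhi hUp hcinj hc0 hm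
          (by have := sum_core (p := p) hβ₀.injective hw; rw [mul_one] at this; omega)
          (fun γ γ' hγ hγ' hs hr => Phi_refl hr hγ hγ' hs)
          (fun γ γ' hγ hr => hcolc.trans (sameCol_refl hp0 hN hr₀ hr (hcolc.symm.trans hγ)))
        have h6 := key T hT (fun γ hγ => hT' γ (hcol0.trans hγ.2.2) (hwt γ hγ)) hself
        have h7 : scb p 1 = 1 := by rw [scb_odd hodd, sb_one]
        omega
      · have h6 := key T hT (fun γ hγ => hT' γ hγ.2.2 (hwt γ hγ)) (k := 0) (by
          intro S hS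
          rw [Nat.le_zero, Finset.card_eq_zero, Finset.eq_empty_iff_forall_notMem]
          intro γ hγ
          exact hex ⟨γ, (hS γ hγ).1, (hS γ hγ).2⟩)
        simp only [bb, pow_zero, mul_one] at h6
        omega
    · by_cases h32 : p = 3 ∧ w = 2
      · obtain ⟨rfl, rfl⟩ := h32
        obtain ⟨T, hT, hT'⟩ := AltMult.rank_three hcinj hc0 hPhi hUp
        have h6 := key T hT (fun γ hγ => hT' γ (hcol0.trans hγ.2.2) (hwt γ hγ)) hself
        have h7 : scb 3 2 = 3 := by decide
        norm_num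
        omega
      · have h5 := scb_lt hodd hp3 h4 h32
        have h6 := key T hT (fun γ hγ => hT' γ hγ.2.2 (hwt γ hγ)) hself
        obtain ⟨v, rfl⟩ : ∃ v, w = v + 1 := ⟨w - 1, by omega⟩
        simp only [bb] at h6
        rw [Nat.add_sub_cancel] at h5
        obtain ⟨q, rfl⟩ : ∃ q, p = q + 1 := ⟨p - 1, by omega⟩
        rw [Nat.add_sub_cancel] at h6
        have h7 : (q + 1) ^ (v + 1) = q * (q + 1) ^ v + (q + 1) ^ v := by rw [pow_succ]; ring
        omega

end Cfsg.Agent.H615.AltRank
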