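import Cfsg.Agent.H615.AltCount
import Cfsg.Agent.H615.AltConj

/-!
# The number of self-reflected tuples of a given colour and weight

`card_self_le` : it is at most `scb p w = ∑_{2 v ≤ w} cc (p / 2) v * cc (p % 2) (w - 2 v)`.
-/

set_option autoImplicit false
set_option linter.unusedSectionVars false

namespace Cfsg.Agent.H615.AltSelf

open Finset Cfsg.Agent.H614 Cfsg.Agent.H615.AltRefl Cfsg.Agent.H615.AltConj
open Cfsg.Agent.H615.AltCount

variable {m : ℕ}

/-- The bound for the number of self-conjugate partitions of weight `w` with a given core. -/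
def scb (p w : ℕ) : ℕ := ∑ v ∈ range (w / 2 + 1), cc (p / 2) v * cc (p % 2) (w - 2 * v)

/-- The runners below the middle. -/
def I1 (p : ℕ) : Finset ℕ := (range p).filter (fun i => 2 * i + 1 < p)

/-- The middle runner. -/
def I2 (p : ℕ) : Finset ℕ := (range p).filter (fun i => 2 * i + 1 = p)

/-- The runners above the middle. -/
def I3 (p : ℕ) : Finset ℕ := (range p).filter (fun i => p < 2 * i + 1)

theorem card_I1 (p : ℕ) : (I1 p).card = p / 2 := by
  have h : I1 p = range (p / 2) := by
    ext i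
    simp only [I1, Finset.mem_filter, Finset.mem_range]
    omega
  rw [h, Finset.card_range]

theorem card_I2 (p : ℕ) : (I2 p).card = p % 2 := by
  rcases Nat.mod_two_eq_zero_or_one p with h | h
  · rw [h, Finset.card_eq_zero]
    ext i
    simp only [I2, Finset.mem_filter, Finset.mem_range, Finset.notMem_empty, iff_false]
    omega
  · rw [h, Finset.card_eq_one]
    refine ⟨p / 2, ?_⟩
    ext i
    simp only [I2, Finset.mem_filter, Finset.mem_range, Finset.mem_singleton]
    omega

theorem union_I (p : ℕ) : (I1 p ∪ I2 p) ∪ I3 p = range p := by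
  ext i
  simp only [I1, I2, I3, Finset.mem_union, Finset.mem_filter, Finset.mem_range]
  omega

theorem card_filter_image {p : ℕ} {γ : Fin m → ℕ} (hγ : Function.Injective γ) {I : Finset ℕ}
    {i : ℕ} (hi : i ∈ I) :
    #{b ∈ (univ.image γ).filter (fun b => b % p ∈ I) | b % p = i} = res p γ i := by
  unfold res
  rw [← Finset.card_image_of_injective _ hγ]
  congr 1
  ext b
  simp only [Finset.mem_image, Finset.mem_filter, Finset.mem_univ, true_and]
  constructor
  · rintro ⟨⟨⟨j, rfl⟩, _⟩, hj⟩
    exact ⟨j, hj, rfl⟩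
  · rintro ⟨j, hj, rfl⟩
    exact ⟨⟨⟨j, rfl⟩, by rw [hj]; exact hi⟩, hj⟩

/-- **The number of self-reflected tuples.** -/
theorem card_self_le {p : ℕ} (hp : 0 < p) (hN : p ∣ m + m) (β₀ : Fin m → ℕ) (w : ℕ)
    (S : Finset (Fin m → ℕ)) (hS : ∀ γ ∈ S, StrictMono γ ∧ IsRefl γ γ ∧ SameCol p β₀ γ ∧
      ∑ j, γ j / p = w + npairs p γ) : S.card ≤ scb p w := by
  classical
  set N := m + m with hNdef
  -- the bead sets
  have hrefl : ∀ γ ∈ S, ∀ b < N, (b ∈ univ.image γ ↔ N - 1 - b ∉ univ.image γ) := by
    intro γ hγ b hb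
    have h1 := (hS γ hγ).2.1.iff b hb
    simpa using h1
  have hinv : ∀ γ ∈ S, 2 * inv N p (I1 p) (univ.image γ) + inv N p (I2 p) (univ.image γ) = w := by
    intro γ hγ
    obtain ⟨h1, h2, h3, h4⟩ := hS γ hγ
    have h5 := sum_div_eq (N := N) hp h1.injective h2.lt (S := univ.image γ) (I := range p) (by
      intro b
      simp only [Finset.mem_image, Finset.mem_univ, true_and, Finset.mem_range]
      exact ⟨fun h => ⟨h, Nat.mod_lt _ hp⟩, fun h => h.1⟩)
    have h6 : inv N p (range p) (univ.image γ) = w := by omega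
    rw [← union_I, inv_union, inv_union] at h6
    · have h7 : inv N p (I1 p) (univ.image γ) = inv N p (I3 p) (univ.image γ) := by
        apply inv_refl hp hN (hrefl γ hγ)
        intro i hi
        simp only [I1, I3, Finset.mem_filter, Finset.mem_range]
        omega
      omega
    · rw [Finset.disjoint_left]
      intro i
      simp only [I1, I2, Finset.mem_filter, Finset.mem_range]
      omega
    · rw [Finset.disjoint_left]
      intro i
      simp only [I1, I2, I3, Finset.mem_filter, Finset.mem_range, Finset.mem_union]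
      omega
  let F1 : (Fin m → ℕ) → Finset ℕ := fun γ => (univ.image γ).filter (fun b => b % p ∈ I1 p)
  let F2 : (Fin m → ℕ) → Finset ℕ := fun γ => (univ.image γ).filter (fun b => b % p ∈ I2 p)
  have hmod : ∀ b < N, (N - 1 - b) % p = p - 1 - b % p := by
    intro b hb
    obtain ⟨K, hK⟩ := hN
    have h2 := Nat.div_add_mod b p
    have h3 := Nat.mod_lt b hp
    have hdiv : b / p < K := by
      by_contra hcon
      push Not at hcon
      have := Nat.mul_le_mul_left p hcon
      omega
    obtain ⟨L, hL⟩ : ∃ L, K = b / p + 1 + L := ⟨K - (b / p + 1), by omega⟩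
    have h4 : N - 1 - b = p * L + (p - 1 - b % p) := by
      rw [hL] at hK
      have h5 : p * (b / p + 1 + L) = p * (b / p) + p + p * L := by ring
      omega
    rw [h4, Nat.mul_add_mod, Nat.mod_eq_of_lt (by omega)]
  have hinj : Set.InjOn (fun γ => (F1 γ, F2 γ)) S := by
    intro γ hγ γ' hγ' h
    obtain ⟨h1, h2⟩ := Prod.ext_iff.mp h
    simp only at h1 h2
    have hm1 : ∀ b, b % p ∈ I1 p → (b ∈ univ.image γ ↔ b ∈ univ.image γ') := by
      intro b hb
      have h3 : b ∈ F1 γ ↔ b ∈ F1 γ' := by rw [h1]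
      simp only [F1, Finset.mem_filter, hb, and_true] at h3
      exact h3
    have hm2 : ∀ b, b % p ∈ I2 p → (b ∈ univ.image γ ↔ b ∈ univ.image γ') := by
      intro b hb
      have h3 : b ∈ F2 γ ↔ b ∈ F2 γ' := by rw [h2]
      simp only [F2, Finset.mem_filter, hb, and_true] at h3
      exact h3
    apply (StrictMono.range_inj (hS γ hγ).1 (hS γ' hγ').1).mp
    ext b
    have hb1 : b ∈ Set.range γ ↔ b ∈ univ.image γ := by simp
    have hb2 : b ∈ Set.range γ' ↔ b ∈ univ.image γ' := by simp
    rw [hb1, hb2]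
    by_cases hbN : b < N
    · have hb3 := Nat.mod_lt b hp
      rcases lt_trichotomy (2 * (b % p) + 1) p with h3 | h3 | h3
      · exact hm1 b (by simp only [I1, Finset.mem_filter, Finset.mem_range]; exact ⟨hb3, h3⟩)
      · exact hm2 b (by simp only [I2, Finset.mem_filter, Finset.mem_range]; exact ⟨hb3, h3⟩)
      · rw [hrefl γ hγ b hbN, hrefl γ' hγ' b hbN, hm1 (N - 1 - b)]
        rw [hmod b hbN]
        simp only [I1, Finset.mem_filter, Finset.mem_range]
        omega
    · rw [← hb1, ← hb2]
      constructor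
      · rintro ⟨j, rfl⟩; exact absurd ((hS γ hγ).2.1.lt j) hbN
      · rintro ⟨j, rfl⟩; exact absurd ((hS γ' hγ').2.1.lt j) hbN
  rw [Finset.card_eq_sum_card_fiberwise (f := fun γ => inv N p (I1 p) (univ.image γ))
    (t := range (w / 2 + 1))]
  swap
  · intro γ hγ
    have := hinv γ hγ
    rw [Finset.mem_coe, Finset.mem_range]
    simp only
    omega
  unfold scb
  refine Finset.sum_le_sum fun v hv => ?_
  set Sv := S.filter (fun γ => inv N p (I1 p) (univ.image γ) = v) with hSv
  have hSvS : ∀ γ ∈ Sv, γ ∈ S ∧ inv N p (I1 p) (univ.image γ) = v := fun γ hγ =>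
    Finset.mem_filter.mp hγ
  have h1 : Sv.card = (Sv.image (fun γ => (F1 γ, F2 γ))).card := by
    rw [Finset.card_image_of_injOn]
    exact hinj.mono (fun γ hγ => (hSvS γ hγ).1)
  have h2 : Sv.image (fun γ => (F1 γ, F2 γ)) ⊆ Sv.image F1 ×ˢ Sv.image F2 := by
    intro x hx
    obtain ⟨γ, hγ, rfl⟩ := Finset.mem_image.mp hx
    rw [Finset.mem_product]
    exact ⟨Finset.mem_image_of_mem _ hγ, Finset.mem_image_of_mem _ hγ⟩
  rw [h1]
  refine (Finset.card_le_card h2).trans ?_
  rw [Finset.card_product]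
  have hsub : ∀ γ ∈ S, ∀ b ∈ univ.image γ, b < N := by
    intro γ hγ b hb
    obtain ⟨j, -, rfl⟩ := Finset.mem_image.mp hb
    exact (hS γ hγ).2.1.lt j
  apply Nat.mul_le_mul
  · rw [← card_I1]
    apply card_sets_le (N := N) hp (I1 p) v (res p β₀)
    intro T hT
    obtain ⟨γ, hγ, rfl⟩ := Finset.mem_image.mp hT
    obtain ⟨hγS, hγv⟩ := hSvS γ hγ
    refine ⟨?_, ?_, ?_, ?_⟩
    · intro b hb
      exact Finset.mem_range.mpr (hsub γ hγS b (Finset.mem_filter.mp hb).1)
    · intro b hb
      exact (Finset.mem_filter.mp hb).2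
    · intro i hi
      rw [(hS γ hγS).2.2.1 i]
      exact card_filter_image (hS γ hγS).1.injective hi
    · rw [← hγv]
      exact inv_filter N p (I1 p) (univ.image γ)
  · rw [← card_I2]
    apply card_sets_le (N := N) hp (I2 p) (w - 2 * v) (res p β₀)
    intro T hT
    obtain ⟨γ, hγ, rfl⟩ := Finset.mem_image.mp hT
    obtain ⟨hγS, hγv⟩ := hSvS γ hγ
    refine ⟨?_, ?_, ?_, ?_⟩
    · intro b hb
      exact Finset.mem_range.mpr (hsub γ hγS b (Finset.mem_filter.mp hb).1)
    · intro b hb
      exact (Finset.mem_filter.mp hb).2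
    · intro i hi
      rw [(hS γ hγS).2.2.1 i]
      exact card_filter_image (hS γ hγS).1.injective hi
    · have h3 := hinv γ hγS
      have h4 : inv N p (I2 p) (univ.image γ) = w - 2 * v := by omega
      rw [← h4]
      exact inv_filter N p (I2 p) (univ.image γ)

end Cfsg.Agent.H615.AltSelf
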