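import Cfsg.Agent.H615.AltConj
import Cfsg.Agent.H615.AltClif
import Cfsg.Agent.H614.Rank
import Cfsg.Agent.S4432
import Cfsg.Agent.Blocks.Over

/-!
# The span of the `p`-regular parts of a block of an alternating group

For a block `B` of the alternating group containing a constituent of the restriction of `ch β₀`, the
`p`-regular parts of the members of `B` lie in the span of the restrictions of the `ch γ` (`γ` of the
colour of `β₀`) and of one function for each self-reflected `γ` of that colour (`blockRank_le_add`).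
-/

set_option autoImplicit false
set_option linter.unusedSectionVars false

namespace Cfsg.Agent.H615.AltSpan

open Finset Cfsg Cfsg.Agent.H614 Cfsg.Agent.H615.AltRefl Cfsg.Agent.H615.AltConj
open Cfsg.Agent.Characters.Core
open scoped ComplexConjugate

universe u

variable {α : Type u} [Fintype α] [DecidableEq α] {m : ℕ}

/-- Restriction of functions to the alternating group. -/
def resA (α : Type u) [Fintype α] [DecidableEq α] :
    (Equiv.Perm α → ℂ) →ₗ[ℂ] (alternatingGroup α → ℂ) where
  toFun f := fun a => f a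
  map_add' _ _ := rfl
  map_smul' _ _ := rfl

theorem resA_apply (f : Equiv.Perm α → ℂ) (a : alternatingGroup α) : resA α f a = f a := rfl

theorem pRegularPart_resA (p : ℕ) (f : Equiv.Perm α → ℂ) :
    pRegularPart p (fun a : alternatingGroup α => f a) = resA α (pRegularPart p f) := by
  funext a
  rw [resA_apply]
  unfold pRegularPart IsPRegular
  rw [Subgroup.orderOf_coe]

/-- The restricted `p`-regular parts of Frobenius' class functions. -/
noncomputable def Phi (α : Type u) [Fintype α] [DecidableEq α] (p : ℕ) (γ : Fin m → ℕ) :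
    alternatingGroup α → ℂ := resA α (pRegularPart p (ch α γ))

theorem Phi_alt (p : ℕ) : Alt (Phi (m := m) α p) := by
  intro σ β
  have h := alt_pRegular (α := α) p σ β
  simp only at h
  unfold Phi
  rw [h, map_zsmul]

theorem Phi_upRel {p : ℕ} (hp : p.Prime) (hm : Fintype.card α ≤ m) :
    UpRel p (Phi (m := m) α p) := by
  intro γ r hr
  unfold Phi
  rw [← map_sum, upRel_pRegular hp hm γ r hr, map_zero]

theorem Phi_eq (p : ℕ) (γ : Fin m → ℕ) :
    Phi α p γ = pRegularPart p (fun a : alternatingGroup α => ch α γ a) :=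
  (pRegularPart_resA p _).symm

/-- Conjugate partitions have the same restriction. -/
theorem resA_ch_refl {β β' : Fin m → ℕ} (h : IsRefl β β') (hβ : StrictMono β)
    (hβ' : StrictMono β') (hs : ∑ i, β i = Fintype.card α + ∑ i : Fin m, (i : ℕ)) :
    (fun a : alternatingGroup α => ch α β a) = fun a : alternatingGroup α => ch α β' a := by
  funext a
  rw [ch_refl h hβ hβ' hs]
  have h1 : sgn (a : Equiv.Perm α) = 1 := by
    unfold sgn
    rw [Equiv.Perm.mem_alternatingGroup.mp a.2]
    simp
  rw [h1, one_mul]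

theorem Phi_refl {p : ℕ} {β β' : Fin m → ℕ} (h : IsRefl β β') (hβ : StrictMono β)
    (hβ' : StrictMono β') (hs : ∑ i, β i = Fintype.card α + ∑ i : Fin m, (i : ℕ)) :
    Phi α p β = Phi α p β' := by
  rw [Phi_eq, Phi_eq, resA_ch_refl h hβ hβ' hs]

/-- A character vanishing on the odd permutations belongs to a self-reflected tuple. -/
theorem isRefl_self_of_vanish (hm : Fintype.card α ≤ m) {γ : Fin m → ℕ} (hγ : StrictMono γ)
    (hs : ∑ i, γ i = Fintype.card α + ∑ i : Fin m, (i : ℕ))
    (hv : ∀ g : Equiv.Perm α, g ∉ alternatingGroup α → ch α γ g = 0) : IsRefl γ γ := by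
  obtain ⟨γ', hγ', hr⟩ := exists_refl (m' := m) hγ (lt_of_strictMono hγ hs hm)
  have h1 : ch α γ = ch α γ' := by
    funext g
    by_cases hg : g ∈ alternatingGroup α
    · exact congrFun (resA_ch_refl hr hγ hγ' hs) ⟨g, hg⟩
    · have h2 := ch_refl hr hγ hγ' hs g
      rw [hv g hg] at h2 ⊢
      have h3 : sgn g ≠ 0 := by
        intro h0
        have := sgn_mul_self g
        rw [h0] at this
        simp at this
      rcases mul_eq_zero.mp h2.symm with h4 | h4
      · exact absurd h4 h3
      · exact h4.symm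
  have h2 := ch_inj hγ hγ' hs h1
  rw [← h2] at hr
  exact hr

/-- The strictly increasing tuples of the colour of `β₀` belonging to partitions of `card α`. -/
def Col (α : Type u) [Fintype α] (p : ℕ) (β₀ : Fin m → ℕ) : Set (Fin m → ℕ) :=
  {γ | StrictMono γ ∧ ∑ i, γ i = Fintype.card α + ∑ i : Fin m, (i : ℕ) ∧ SameCol p β₀ γ}

/-- The index of the alternating group. -/
theorem index_two [Nontrivial α] : (alternatingGroup α).index = 2 :=
  alternatingGroup.index_eq_two

/-- Every member of `B` lies under a character of the colour of `β₀`. -/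
theorem exists_col {p : ℕ} [hp : Fact p.Prime] {M : Ideal AlgInt} (hM : IsPModular p M)
    (hm : Fintype.card α ≤ m) {β₀ : Fin m → ℕ} (hβ₀ : StrictMono β₀)
    (hs₀ : ∑ i, β₀ i = Fintype.card α + ∑ i : Fin m, (i : ℕ))
    {B : Set (IrrCharacter (alternatingGroup α))} (hB : IsPBlock M B)
    {χ₀ : IrrCharacter (alternatingGroup α)} (hχ₀ : χ₀ ∈ B)
    (hc₀ : classInner (fun a : alternatingGroup α => ch α β₀ a) (χ₀ : alternatingGroup α → ℂ) ≠ 0)
    {χ : IrrCharacter (alternatingGroup α)} (hχ : χ ∈ B) :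
    ∃ γ ∈ Col α p β₀,
      classInner (fun a : alternatingGroup α => ch α γ a) (χ : alternatingGroup α → ℂ) ≠ 0 := by
  have hMp : M.IsPrime := hM.2.1.isPrime
  set X₀ : IrrCharacter (Equiv.Perm α) := ⟨ch α β₀, isIrr_ch hβ₀ hs₀⟩ with hX₀
  have hX₀' : X₀ ∈ blockOf M (X₀ : Equiv.Perm α → ℂ) := Blocks.Basic.mem_blockOf_self X₀
  obtain ⟨ψ, hψ, hψχ⟩ := S4432.result p M hM (alternatingGroup α)
    (blockOf M (X₀ : Equiv.Perm α → ℂ)) (Blocks.Basic.isPBlock_blockOf X₀) B hB
    ⟨X₀, hX₀', χ₀, hχ₀, hc₀⟩ χ hχ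
  obtain ⟨γ, hγ, hsγ, hψγ, hc⟩ := mem_blockOf hM hm hβ₀ hs₀ hψ
  refine ⟨γ, ⟨hγ, hsγ, hc⟩, ?_⟩
  rw [← hψγ]; exact hψχ

/-- **The rank of a block of an alternating group.** -/
theorem blockRank_le_add [Nontrivial α] {p : ℕ} [hp : Fact p.Prime] {M : Ideal AlgInt}
    (hM : IsPModular p M) (hm : Fintype.card α ≤ m) {β₀ : Fin m → ℕ} (hβ₀ : StrictMono β₀)
    (hs₀ : ∑ i, β₀ i = Fintype.card α + ∑ i : Fin m, (i : ℕ))
    {B : Set (IrrCharacter (alternatingGroup α))} (hB : IsPBlock M B)
    {χ₀ : IrrCharacter (alternatingGroup α)} (hχ₀ : χ₀ ∈ B)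
    (hc₀ : classInner (fun a : alternatingGroup α => ch α β₀ a) (χ₀ : alternatingGroup α → ℂ) ≠ 0)
    {T : Finset (alternatingGroup α → ℂ)}
    (hT : ∀ γ ∈ Col α p β₀, Phi α p γ ∈ Submodule.span ℂ (T : Set (alternatingGroup α → ℂ)))
    {k : ℕ} (hk : ∀ S : Finset (Fin m → ℕ), (∀ γ ∈ S, γ ∈ Col α p β₀ ∧ IsRefl γ γ) → S.card ≤ k) :
    blockRank p B ≤ T.card + k := by
  classical
  -- a constituent for every tuple
  have hch : ∀ γ : Fin m → ℕ, ∃ θ : alternatingGroup α → ℂ,
      (∃ χ : IrrCharacter (alternatingGroup α),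
        classInner (fun a : alternatingGroup α => ch α γ a) (χ : alternatingGroup α → ℂ) ≠ 0) →
      IsIrrCharacter (alternatingGroup α) θ ∧
        classInner (fun a : alternatingGroup α => ch α γ a) θ ≠ 0 := by
    intro γ
    by_cases h : ∃ χ : IrrCharacter (alternatingGroup α),
        classInner (fun a : alternatingGroup α => ch α γ a) (χ : alternatingGroup α → ℂ) ≠ 0
    · obtain ⟨χ, hχ⟩ := h
      exact ⟨χ, fun _ => ⟨χ.2, hχ⟩⟩
    · exact ⟨0, fun h' => absurd h' h⟩
  choose θ hθ using hch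
  set S : Finset (Fin m → ℕ) := (Fintype.piFinset fun _ : Fin m => Finset.range (m + m)).filter
    (fun γ => γ ∈ Col α p β₀ ∧ IsRefl γ γ) with hS
  have hScard : S.card ≤ k := hk S fun γ hγ => (Finset.mem_filter.mp hγ).2
  set T' : Finset (alternatingGroup α → ℂ) := S.image (fun γ => pRegularPart p (θ γ)) with hT'
  have hT'card : T'.card ≤ k := Finset.card_image_le.trans hScard
  have hmem : ∀ χ ∈ B, pRegularPart p (χ : alternatingGroup α → ℂ) ∈
      Submodule.span ℂ ((T ∪ T' : Finset (alternatingGroup α → ℂ)) : Set (alternatingGroup α → ℂ)) := by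
    intro χ hχ
    obtain ⟨γ, hγ, hγχ⟩ := exists_col hM hm hβ₀ hs₀ hB hχ₀ hc₀ hχ
    have h1 : Phi α p γ ∈ Submodule.span ℂ
        ((T ∪ T' : Finset (alternatingGroup α → ℂ)) : Set (alternatingGroup α → ℂ)) := by
      refine Submodule.span_mono ?_ (hT γ hγ)
      rw [Finset.coe_union]; exact Set.subset_union_left
    by_cases hv : ∀ g : Equiv.Perm α, g ∉ alternatingGroup α → ch α γ g = 0
    · have hr := isRefl_self_of_vanish hm hγ.1 hγ.2.1 hv
      have hγS : γ ∈ S := by
        rw [hS, Finset.mem_filter, Fintype.mem_piFinset]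
        exact ⟨fun i => Finset.mem_range.mpr (hr.lt i), hγ, hr⟩
      have h2 : pRegularPart p (θ γ) ∈ Submodule.span ℂ
          ((T ∪ T' : Finset (alternatingGroup α → ℂ)) : Set (alternatingGroup α → ℂ)) := by
        apply Submodule.subset_span
        rw [Finset.coe_union]
        right
        rw [hT', Finset.mem_coe]
        exact Finset.mem_image_of_mem _ hγS
      obtain ⟨h3, h4⟩ := hθ γ ⟨χ, hγχ⟩
      by_cases heq : (χ : alternatingGroup α → ℂ) = θ γ
      · rw [heq]; exact h2
      · have h5 := AltClif.restrict_eq_add index_two (isIrr_ch hγ.1 hγ.2.1) hv χ.2 h3 heq hγχ h4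
        have h6 : pRegularPart p (χ : alternatingGroup α → ℂ) =
            Phi α p γ - pRegularPart p (θ γ) := by
          rw [Phi_eq, h5]
          funext a
          simp only [pRegularPart, Pi.sub_apply, Pi.add_apply]
          split_ifs <;> simp
        rw [h6]
        exact Submodule.sub_mem _ h1 h2
    · push Not at hv
      obtain ⟨y, hy, hne⟩ := hv
      have h2 := HKS.CosetTwo.isIrr_restrict index_two (isIrr_ch hγ.1 hγ.2.1) hy hne
      have h3 := AltClif.eq_of_irr_constituent h2 χ.2 hγχ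
      rw [h3, ← Phi_eq]
      exact h1
  unfold blockRank
  refine le_trans (Submodule.finrank_mono (t := Submodule.span ℂ
    ((T ∪ T' : Finset (alternatingGroup α → ℂ)) : Set (alternatingGroup α → ℂ))) ?_) ?_
  · rw [Submodule.span_le]
    rintro _ ⟨χ, hχ, rfl⟩
    exact hmem χ hχ
  · refine (finrank_span_finset_le_card _).trans ?_
    refine (Finset.card_union_le _ _).trans ?_
    omega

/-- Every irreducible character of the alternating group lies under some `ch β`. -/
theorem exists_beta (hm : Fintype.card α ≤ m) (χ : IrrCharacter (alternatingGroup α)) :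
    ∃ β : Fin m → ℕ, StrictMono β ∧ ∑ i, β i = Fintype.card α + ∑ i : Fin m, (i : ℕ) ∧
      classInner (fun a : alternatingGroup α => ch α β a) (χ : alternatingGroup α → ℂ) ≠ 0 := by
  obtain ⟨ψ, hψ⟩ := Blocks.Over.exists_over (alternatingGroup α) χ
  obtain ⟨β, hβ, hs, hψβ⟩ := irr_eq hm ψ.2
  refine ⟨β, hβ, hs, ?_⟩
  rw [← hψβ]; exact hψ

end Cfsg.Agent.H615.AltSpan
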