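import Cfsg.Agent.H615.SLRadical
import Cfsg.Agent.S0906
import Cfsg.Agent.S0908
import Cfsg.Agent.S0955
import Cfsg.Agent.S0956

/-!
# Blocks of `SL_n(F)` in the defining characteristic have defect zero or full defect
-/

set_option autoImplicit false

namespace Cfsg.Agent.H615.SLDefect

open Cfsg

theorem defect_zero_or_full {F : Type*} [Field F] [Fintype F] {n : ℕ} (p : ℕ) [hp : Fact p.Prime] [CharP F p]
    (M : Ideal Cfsg.AlgInt) (hM : Cfsg.IsPModular p M)
    (B : Set (Cfsg.IrrCharacter (Matrix.SpecialLinearGroup (Fin n) F))) (hB : Cfsg.IsPBlock M B) :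
    Cfsg.blockDefect p B = 0 ∨
      Cfsg.blockDefect p B = (Nat.card (Matrix.SpecialLinearGroup (Fin n) F)).factorization p := by
  classical
  obtain ⟨g, hg⟩ := Cfsg.Agent.S0906.result p M hM B hB
  obtain ⟨P0⟩ : Nonempty (Sylow p (Subgroup.centralizer ({g} : Set (Matrix.SpecialLinearGroup (Fin n) F)))) :=
    inferInstance
  set D := (P0 : Subgroup (Subgroup.centralizer ({g} : Set (Matrix.SpecialLinearGroup (Fin n) F)))).map
    (Subgroup.centralizer ({g} : Set (Matrix.SpecialLinearGroup (Fin n) F))).subtype with hDdef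
  have hD : IsDefectGroup p M B D := ⟨g, hg, P0, rfl⟩
  have hcard := Cfsg.Agent.S0908.result p M hM B hB D hD
  have hDp : IsPGroup p D := P0.isPGroup'.map _
  by_cases hne : D = ⊥
  · left
    rw [hne, Subgroup.card_bot] at hcard
    have := (Nat.pow_eq_one.1 hcard.symm)
    rcases this with h | h
    · exact absurd h hp.1.one_lt.ne'
    · exact h
  · right
    obtain ⟨P, hP⟩ := hDp.exists_le_sylow
    obtain ⟨x, hxo, ⟨S, hS⟩, -⟩ := Cfsg.Agent.S0956.result p M hM B hB D hD P hP
    have hrad := Cfsg.Agent.S0955.result p M hM B hB D hD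
    have hxD : ∀ d ∈ D, x * d = d * x := by
      intro d hd
      rw [← hS] at hd
      obtain ⟨e, _, rfl⟩ := hd
      exact (Subgroup.mem_centralizer_singleton_iff.1 e.2).symm
    have hx : x ∈ Subgroup.center _ := by
      refine SLRad.mem_center_of_commute p D hDp hne ?_ x hxD hxo
      intro A hA hAN hAn
      rw [← hrad]
      intro a ha
      refine ⟨⟨a, hAN ha⟩, ?_, rfl⟩
      have hle : A.subgroupOf (Subgroup.normalizer (D : Set _)) ≤ Cfsg.pCore p _ := by
        apply le_sSup
        refine ⟨⟨?_⟩, hA.comap_subtype⟩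
        intro b hb c
        rw [Subgroup.mem_subgroupOf] at hb ⊢
        exact hAn c c.2 b hb
      exact hle (by rw [Subgroup.mem_subgroupOf]; exact ha)
    have hc : Subgroup.centralizer ({x} : Set (Matrix.SpecialLinearGroup (Fin n) F)) = ⊤ := by
      rw [Subgroup.centralizer_eq_top_iff_subset]
      rintro _ rfl
      exact hx
    have h1 : Nat.card D = Nat.card S := by
      rw [← hS]
      exact Subgroup.card_map_of_injective (Subgroup.subtype_injective _)
    have h2 := S.card_eq_multiplicity
    have h3 : Nat.card (Subgroup.centralizer ({x} : Set (Matrix.SpecialLinearGroup (Fin n) F))) =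
        Nat.card (Matrix.SpecialLinearGroup (Fin n) F) := by
      rw [hc]; exact Nat.card_congr Subgroup.topEquiv.toEquiv
    rw [h3] at h2
    rw [h1, h2] at hcard
    exact (Nat.pow_right_injective hp.1.two_le hcard).symm

end Cfsg.Agent.H615.SLDefect
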